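import Cfsg.Agent.Lib.ToddCox.Rep
set_option autoImplicit false
set_option maxRecDepth 100000
namespace Cfsg.Agent.Lib.ToddCox.A5T
def T_0 : ℕ := 0x2000100003000040000
def T_1 : ℕ := 0x3000100001000080000
def T_2 : ℕ := 0x3000100002000000001
def T_3 : ℕ := 0x3000080004000040000
end Cfsg.Agent.Lib.ToddCox.A5T
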